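import Cfsg.Agent.H776.Co.FusDef
import Cfsg.Agent.H785.FusTools

/-!
# S5227, task C7 (helper800): every saturated fusion system on `P` can be normalised

The two facts on automorphisms of `P` (task C6) are hypotheses here.
-/

set_option autoImplicit false
set_option linter.style.longLine false

namespace Cfsg.Agent.H800.Co

open Subgroup Cfsg Cfsg.FusionSystem Cfsg.Agent.H752 Cfsg.Agent.H776.Co
open P (card_P)

/-- The facts on automorphisms of `P` used here (from task C6). -/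
structure AutFacts : Prop where
  signs : ∀ {f : P → P}, (∀ x y, f (x * y) = f x * f y) → Function.Injective f →
    ∃ e1 e2 e3 : ZMod 3, e1 ^ 2 = 1 ∧ e2 ^ 2 = 1 ∧ e3 ^ 2 = 1 ∧
      ∀ x, (f x).a = e1 * x.a ∧ (f x).b = e2 * x.b ∧ (f x).m33 = e3 * x.m33
  pow : ∀ {f : P → P}, (∀ x y, f (x * y) = f x * f y) → Function.Injective f →
    (∀ x, (f x).a = x.a ∧ (f x).b = x.b ∧ (f x).m33 = x.m33) → ∃ k : ℕ, ∀ x, f^[3 ^ k] x = x

/-! ### The torus in `Aut(P)` -/

theorem tor_tor (e1 e2 e3 d1 d2 d3 : ZMod 3) (x : P) :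
    tor e1 e2 e3 (tor d1 d2 d3 x) = tor (e1 * d1) (e2 * d2) (e3 * d3) x := by
  ext <;> simp only [tor] <;> ring

theorem tor_one (x : P) : tor 1 1 1 x = x := by
  ext <;> simp only [tor] <;> ring

/-- sign triples -/
abbrev Sg : Type := (ZMod 3)ˣ × (ZMod 3)ˣ × (ZMod 3)ˣ

theorem unit_sq (e : (ZMod 3)ˣ) : (e : ZMod 3) ^ 2 = 1 := by
  revert e; decide

/-- the torus automorphism -/
def torAut (e : Sg) : MulAut P where
  toFun := tor e.1 e.2.1 e.2.2
  invFun := tor (e⁻¹).1 (e⁻¹).2.1 (e⁻¹).2.2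
  left_inv x := by
    rw [tor_tor]
    simp only [Prod.fst_inv, Prod.snd_inv, ← Units.val_mul, inv_mul_cancel, Units.val_one]
    exact tor_one x
  right_inv x := by
    rw [tor_tor]
    simp only [Prod.fst_inv, Prod.snd_inv, ← Units.val_mul, mul_inv_cancel, Units.val_one]
    exact tor_one x
  map_mul' x y := tor_mul (unit_sq _) (unit_sq _) x y

theorem torAut_apply (e : Sg) (x : P) : torAut e x = tor e.1 e.2.1 e.2.2 x := rfl

/-- the torus as a homomorphism -/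
def torHom : Sg →* MulAut P where
  toFun := torAut
  map_one' := MulEquiv.ext fun x => by
    rw [torAut_apply]
    exact tor_one x
  map_mul' e d := MulEquiv.ext fun x => by
    rw [MulAut.mul_apply, torAut_apply, torAut_apply, torAut_apply, tor_tor]
    rfl

theorem torHom_injective : Function.Injective torHom := by
  intro e d h
  have h1 : ∀ x : P, tor e.1 e.2.1 e.2.2 x = tor d.1 d.2.1 d.2.2 x := fun x =>
    congrArg (fun α : MulAut P => α x) h
  have h2 := h1 ⟨1, 1, 0, 0, 0, 0, 0, 0, 1⟩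
  have ha := congrArg P.a h2
  have hb := congrArg P.b h2
  have hc := congrArg P.m33 h2
  simp only [tor, mul_one] at ha hb hc
  exact Prod.ext (Units.ext ha) (Prod.ext (Units.ext hb) (Units.ext hc))

/-- the torus -/
def TT : Subgroup (MulAut P) := torHom.range

theorem card_TT : Nat.card TT = 8 := by
  have h1 : Nat.card Sg = 8 := by
    rw [Nat.card_eq_fintype_card]
    decide
  rw [← h1]
  exact (Nat.card_congr (MonoidHom.ofInjective torHom_injective).toEquiv).symm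

/-- automorphisms trivial on `P/Φ(P)` -/
def KK : Subgroup (MulAut P) where
  carrier := {f | ∀ x, (f x).a = x.a ∧ (f x).b = x.b ∧ (f x).m33 = x.m33}
  mul_mem' := by
    intro f g hf hg x
    obtain ⟨h1, h2, h3⟩ := hf (g x)
    obtain ⟨h4, h5, h6⟩ := hg x
    exact ⟨h1.trans h4, h2.trans h5, h3.trans h6⟩
  one_mem' := fun x => ⟨rfl, rfl, rfl⟩
  inv_mem' := by
    intro f hf x
    obtain ⟨h1, h2, h3⟩ := hf (f⁻¹ x)
    have h : f (f⁻¹ x) = x := MulAut.apply_inv_self P f x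
    rw [h] at h1 h2 h3
    exact ⟨h1.symm, h2.symm, h3.symm⟩

theorem mem_KK {f : MulAut P} : f ∈ KK ↔ ∀ x, (f x).a = x.a ∧ (f x).b = x.b ∧ (f x).m33 = x.m33 := Iff.rfl

theorem exists_mul (h : AutFacts) (f : MulAut P) : ∃ k ∈ KK, ∃ t ∈ TT, f = k * t := by
  obtain ⟨e1, e2, e3, h1, h2, h3, hx⟩ := h.signs (f := f) (fun x y => map_mul f x y) f.injective
  let u1 : (ZMod 3)ˣ := ⟨e1, e1, by rw [← sq, h1], by rw [← sq, h1]⟩
  let u2 : (ZMod 3)ˣ := ⟨e2, e2, by rw [← sq, h2], by rw [← sq, h2]⟩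
  let u3 : (ZMod 3)ˣ := ⟨e3, e3, by rw [← sq, h3], by rw [← sq, h3]⟩
  refine ⟨f * (torHom (u1, u2, u3))⁻¹, ?_, torHom (u1, u2, u3), ⟨_, rfl⟩, by group⟩
  rw [← map_inv]
  intro x
  obtain ⟨h4, h5, h6⟩ := hx (torHom (u1, u2, u3)⁻¹ x)
  have e : torHom (u1, u2, u3)⁻¹ x = tor e1 e2 e3 x := rfl
  rw [MulAut.mul_apply]
  rw [e] at h4 h5 h6 ⊢
  refine ⟨h4.trans ?_, h5.trans ?_, h6.trans ?_⟩
  · show e1 * (e1 * x.a) = x.a
    rw [← mul_assoc, ← sq, h1, one_mul]
  · show e2 * (e2 * x.b) = x.b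
    rw [← mul_assoc, ← sq, h2, one_mul]
  · show e3 * (e3 * x.m33) = x.m33
    rw [← mul_assoc, ← sq, h3, one_mul]

theorem tor_norm {k t : MulAut P} (hk : k ∈ KK) (ht : t ∈ TT) : t * k * t⁻¹ ∈ KK := by
  obtain ⟨e, rfl⟩ := ht
  intro x
  rw [← map_inv]
  obtain ⟨h1, h2, h3⟩ := hk (torHom e⁻¹ x)
  refine ⟨?_, ?_, ?_⟩
  · show (e.1 : ZMod 3) * (k (torHom e⁻¹ x)).a = x.a
    rw [h1]
    show (e.1 : ZMod 3) * (((e⁻¹).1 : (ZMod 3)ˣ) * x.a) = x.a
    rw [← mul_assoc, Prod.fst_inv, ← Units.val_mul, mul_inv_cancel, Units.val_one, one_mul]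
  · show (e.2.1 : ZMod 3) * (k (torHom e⁻¹ x)).b = x.b
    rw [h2]
    show (e.2.1 : ZMod 3) * (((e⁻¹).2.1 : (ZMod 3)ˣ) * x.b) = x.b
    rw [← mul_assoc, Prod.snd_inv, Prod.fst_inv, ← Units.val_mul, mul_inv_cancel, Units.val_one, one_mul]
  · show (e.2.2 : ZMod 3) * (k (torHom e⁻¹ x)).m33 = x.m33
    rw [h3]
    show (e.2.2 : ZMod 3) * (((e⁻¹).2.2 : (ZMod 3)ˣ) * x.m33) = x.m33
    rw [← mul_assoc, Prod.snd_inv, Prod.snd_inv, ← Units.val_mul, mul_inv_cancel, Units.val_one, one_mul]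

theorem normal_KK (h : AutFacts) : KK.Normal := by
  refine ⟨fun k hk g => ?_⟩
  obtain ⟨l, hl, t, ht, rfl⟩ := exists_mul h g
  have h1 : l * t * k * (l * t)⁻¹ = l * (t * k * t⁻¹) * l⁻¹ := by group
  rw [h1]
  exact mul_mem (mul_mem hl (tor_norm hk ht)) (inv_mem hl)

theorem isPGroup_KK (h : AutFacts) : IsPGroup 3 KK := by
  rintro ⟨f, hf⟩
  obtain ⟨k, hk⟩ := h.pow (f := f) (fun x y => map_mul f x y) f.injective hf
  refine ⟨k, Subtype.ext (MulEquiv.ext fun x => ?_)⟩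
  show (f ^ 3 ^ k) x = x
  have e : ∀ n : ℕ, (f ^ n) x = f^[n] x := by
    intro n
    induction n with
    | zero => rfl
    | succ n ih => rw [pow_succ', Function.iterate_succ_apply', MulAut.mul_apply, ih]
  rw [e, hk]

theorem KK_sup_TT (h : AutFacts) : KK ⊔ TT = ⊤ := by
  rw [eq_top_iff]
  intro f _
  obtain ⟨k, hk, t, ht, rfl⟩ := exists_mul h f
  exact mul_mem (mem_sup_left hk) (mem_sup_right ht)

theorem index_KK_dvd (h : AutFacts) : KK.index ∣ 8 := by
  have := normal_KK h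
  have h1 : KK.relIndex (TT ⊔ KK) = KK.relIndex TT := Subgroup.relIndex_sup_right TT KK
  rw [sup_comm, KK_sup_TT h, Subgroup.relIndex_top_right] at h1
  rw [h1, ← card_TT]
  exact Subgroup.relIndex_dvd_card KK TT

theorem not_dvd_index_TT (h : AutFacts) : ¬ 2 ∣ TT.index := by
  have : Finite (MulAut P) := inferInstance
  obtain ⟨n, hn⟩ := (IsPGroup.iff_card).1 (isPGroup_KK h)
  have h1 := KK.card_mul_index
  have h2 := TT.card_mul_index
  rw [← h1, card_TT, hn] at h2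
  -- `8 * TT.index = 3 ^ n * KK.index`
  obtain ⟨c, hc⟩ := index_KK_dvd h
  have hpos : 0 < KK.index := Nat.pos_of_ne_zero Subgroup.index_ne_zero_of_finite
  have h3 : 8 ∣ KK.index := by
    have h4 : 8 ∣ 3 ^ n * KK.index := ⟨_, h2.symm⟩
    have h5 : Nat.Coprime 8 (3 ^ n) := Nat.Coprime.pow_right n (by norm_num)
    exact h5.dvd_of_dvd_mul_left h4
  obtain ⟨d, hd⟩ := h3
  have hd1 : d = 1 := by
    rw [hd] at hc hpos
    have h6 : d * c = 1 := by
      have : 8 * (d * c) = 8 * 1 := by rw [← mul_assoc, ← hc]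
      exact Nat.eq_of_mul_eq_mul_left (by norm_num) this
    exact Nat.eq_one_of_mul_eq_one_right h6
  rw [hd, hd1] at h2
  have h7 : TT.index = 3 ^ n := by
    have : 8 * TT.index = 8 * 3 ^ n := by rw [h2]; ring
    exact Nat.eq_of_mul_eq_mul_left (by norm_num) this
  rw [h7]
  intro h8
  have h9 := Nat.prime_two.dvd_of_dvd_pow h8
  omega

/-- every 2-subgroup of `Aut(P)` is conjugate to a subgroup of the torus -/
theorem exists_conj_TT (h : AutFacts) (H : Subgroup (MulAut P)) (hH : IsPGroup 2 H) :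
    ∃ α : MulAut P, ∀ x ∈ H, α * x * α⁻¹ ∈ TT := by
  have : Finite (MulAut P) := inferInstance
  have hT : IsPGroup 2 TT := IsPGroup.of_card (n := 3) (by rw [card_TT]; norm_num)
  let T : Sylow 2 (MulAut P) := hT.toSylow (not_dvd_index_TT h)
  have hTc : (T : Subgroup (MulAut P)) = TT := hT.toSylow_coe (not_dvd_index_TT h)
  obtain ⟨S, hS⟩ := hH.exists_le_sylow
  obtain ⟨g, hg⟩ := MulAction.exists_smul_eq (MulAut P) S T
  refine ⟨g, fun x hx => ?_⟩
  rw [← hTc, ← hg, Sylow.coe_subgroup_smul, ← MulAut.conj_apply]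
  exact Subgroup.smul_mem_pointwise_smul _ _ _ (hS hx)

/-! ### The automorphism group of `P` in the fusion system -/

/-- `Aut_F(P)` as a group of automorphisms of `P` -/
def AF (F : FusionSystem (⊤ : Subgroup P)) : Subgroup (MulAut P) where
  carrier := {α | Mp F ⊤ (fun x => α x)}
  mul_mem' {α β} ha hb := Mp.comp (f := fun x => β x) (g := fun x => α x) hb ha fun _ _ => mem_top _
  one_mem' := mp_id F le_rfl
  inv_mem' {α} h := Mp.symm (f := fun x => α x) (g := fun x => α⁻¹ x) h fun y _ =>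
    ⟨α⁻¹ y, mem_top _, MulAut.apply_inv_self P α y, rfl⟩

theorem mem_AF {F : FusionSystem (⊤ : Subgroup P)} {α : MulAut P} : α ∈ AF F ↔ Mp F ⊤ (fun x => α x) := Iff.rfl

theorem exists_AF {F : FusionSystem (⊤ : Subgroup P)} {f : P → P} (hf : Mp F ⊤ f) : ∃ α ∈ AF F, ∀ x, α x = f x := by
  have hinj : Function.Injective f := fun x y h => hf.inj (mem_top x) (mem_top y) h
  let g : P →* P := MonoidHom.mk' f (fun x y => hf.mul (mem_top x) (mem_top y))
  have hb : Function.Bijective g := ⟨hinj, Finite.injective_iff_surjective.1 hinj⟩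
  exact ⟨MulEquiv.ofBijective g hb, hf.congr fun x _ => rfl, fun x => rfl⟩

theorem eq_conj_of_mem (h : AutFacts) {F : FusionSystem (⊤ : Subgroup P)} (hF : F.IsSaturated 3) {α : MulAut P} (ha : α ∈ AF F)
    (hk : α ∈ KK) : ∃ s : P, α = MulAut.conj s := by
  obtain ⟨k, hk⟩ := h.pow (f := α) (fun x y => map_mul α x y) α.injective hk
  obtain ⟨β, hβ, h1⟩ := Mp.exists_aut (P := (⊤ : Subgroup P)) ha (fun _ _ => mem_top _)
  have e : ∀ (n : ℕ) (x : P), (((β ^ n) ⟨x, mem_top x⟩ : (⊤ : Subgroup P)) : P) = α^[n] x := by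
    intro n
    induction n with
    | zero => intro x; rfl
    | succ n ih =>
      intro x
      rw [pow_succ, Function.iterate_succ_apply, MulAut.mul_apply, ← ih (α x)]
      congr 2
      exact Subtype.ext (h1 x (mem_top x)).symm
  have h2 : β ^ 3 ^ k = 1 := by
    refine MulEquiv.ext fun x => Subtype.ext ?_
    have h3 := e (3 ^ k) x
    rw [hk] at h3
    exact h3
  have hS : IsPGroup 3 (⊤ : Subgroup P) := P.isPGroup_P.to_subgroup ⊤
  obtain ⟨s, hs⟩ := H785.mem_inn_of_pow hS hF hβ h2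
  refine ⟨s, MulEquiv.ext fun x => ?_⟩
  have h3 := h1 x (mem_top x)
  rw [← hs] at h3
  exact h3

/-- **C7, first part**, from the facts on automorphisms of `P`. -/
theorem exists_norm_of (h : AutFacts) (F : FusionSystem (⊤ : Subgroup P)) (hF : F.IsSaturated 3) :
    ∃ α : P ≃* P, ∀ f, Mp F ⊤ f → ∃ (s : P) (e1 e2 e3 : ZMod 3), e1 ^ 2 = 1 ∧ e2 ^ 2 = 1 ∧ e3 ^ 2 = 1 ∧
      ∀ x, α (f (α.symm x)) = s * tor e1 e2 e3 x * s⁻¹ := by
  have : Finite (MulAut P) := inferInstance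
  have hKn := normal_KK h
  let H : Sylow 2 (AF F) := default
  let K' : Subgroup (AF F) := KK.subgroupOf (AF F)
  have hK' : K'.Normal := inferInstance
  -- `K' ⊔ H = ⊤`
  have htop : K' ⊔ (H : Subgroup (AF F)) = ⊤ := by
    have h1 : K'.index ∣ 8 := (Subgroup.relIndex_dvd_index_of_normal KK (AF F)).trans (index_KK_dvd h)
    have h2 : (K' ⊔ (H : Subgroup (AF F))).index ∣ 8 := (Subgroup.index_dvd_of_le le_sup_left).trans h1
    have h3 : (K' ⊔ (H : Subgroup (AF F))).index ∣ (H : Subgroup (AF F)).index := Subgroup.index_dvd_of_le le_sup_right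
    have h4 : ¬ 2 ∣ (H : Subgroup (AF F)).index := H.not_dvd_index
    have h5 : Nat.Coprime 8 (H : Subgroup (AF F)).index := by
      have : Nat.Coprime (2 ^ 3) (H : Subgroup (AF F)).index :=
        Nat.Coprime.pow_left 3 ((Nat.Prime.coprime_iff_not_dvd Nat.prime_two).2 h4)
      exact this
    exact Subgroup.index_eq_one.1 (Nat.eq_one_of_dvd_coprimes h5 h2 h3)
  -- move `H` into the torus
  obtain ⟨α, hα⟩ := exists_conj_TT h ((H : Subgroup (AF F)).map (AF F).subtype) (H.isPGroup'.map _)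
  refine ⟨α, fun f hf => ?_⟩
  obtain ⟨φ, hφ, hφf⟩ := exists_AF hf
  have h1 : (⟨φ, hφ⟩ : AF F) ∈ ((K' ⊔ (H : Subgroup (AF F)) : Subgroup (AF F)) : Set (AF F)) := by
    rw [htop]; exact mem_top _
  rw [Subgroup.normal_mul] at h1
  obtain ⟨k, hk, t, ht, hkt⟩ := Set.mem_mul.1 h1
  obtain ⟨s, hs⟩ := eq_conj_of_mem h hF k.2 (mem_subgroupOf.1 hk)
  obtain ⟨e, he⟩ := hα t ⟨t, ht, rfl⟩
  have hφe : φ = MulAut.conj s * (t : MulAut P) := by
    rw [← hs]
    exact (congrArg Subtype.val hkt).symm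
  refine ⟨α s, e.1, e.2.1, e.2.2, unit_sq _, unit_sq _, unit_sq _, fun x => ?_⟩
  have h2 : tor e.1 e.2.1 e.2.2 x = α ((t : MulAut P) (α.symm x)) := by
    have h3 : torHom e x = (α * t * α⁻¹) x := by rw [he]
    exact h3
  rw [h2, ← hφf, hφe]
  show α (s * (t : MulAut P) (α.symm x) * s⁻¹) = _
  rw [map_mul, map_mul, map_inv]

end Cfsg.Agent.H800.Co
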