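import Cfsg.Agent.H800.Co.Conj
import Cfsg.Agent.H800.Co.Norm
import Cfsg.Agent.H587.CoC6.AutP

/-!
# S5227, task C7 (helper800): the final statements
-/

set_option autoImplicit false
set_option linter.style.longLine false

namespace Cfsg.Agent.H800.Co

open Subgroup Cfsg Cfsg.FusionSystem Cfsg.Agent.H752 Cfsg.Agent.H776.Co

theorem autFacts : AutFacts where
  signs hmul hinj := (Cfsg.Agent.H587.CoC6.aut_P hmul hinj).2.2.2
  pow hmul hinj h := Cfsg.Agent.H587.CoC6.pow_of_trivial hmul hinj h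

/-- **C7, first part.** -/
theorem exists_norm (F : FusionSystem (⊤ : Subgroup P)) (hF : F.IsSaturated 3) :
    ∃ α : P ≃* P, ∀ f, Mp F ⊤ f → ∃ (s : P) (e1 e2 e3 : ZMod 3), e1 ^ 2 = 1 ∧ e2 ^ 2 = 1 ∧ e3 ^ 2 = 1 ∧
      ∀ x, α (f (α.symm x)) = s * tor e1 e2 e3 x * s⁻¹ :=
  exists_norm_of autFacts F hF

/-- Both parts: every saturated system on `P` is isomorphic to a normalised one. -/
theorem exists_nrm (F : FusionSystem (⊤ : Subgroup P)) (hF : F.IsSaturated 3) :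
    ∃ F' : FusionSystem (⊤ : Subgroup P), Nrm F' ∧ (F.core = ⊥ → F'.core = ⊥) ∧ (F'.IsRealizable 3 → F.IsRealizable 3) := by
  obtain ⟨α, hα⟩ := exists_norm F hF
  obtain ⟨F', h1, h2, h3, h4⟩ := exists_conj F α
  refine ⟨F', ⟨h2 hF, fun g hg => ?_⟩, h3, h4⟩
  have htop : (⊤ : Subgroup P).map α.toMonoidHom = ⊤ := by
    ext x
    exact ⟨fun _ => mem_top _, fun _ => ⟨α.symm x, mem_top _, α.apply_symm_apply x⟩⟩
  have h5 : Mp F ⊤ (fun x => α.symm (g (α x))) := by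
    rw [← h1 ⊤, htop]
    refine hg.congr fun x _ => ?_
    show α (α.symm (g (α (α.symm x)))) = g x
    rw [α.apply_symm_apply, α.apply_symm_apply]
  obtain ⟨s, e1, e2, e3, q1, q2, q3, h6⟩ := hα _ h5
  refine ⟨s, e1, e2, e3, q1, q2, q3, fun x => ?_⟩
  have h7 := h6 x
  rw [α.apply_symm_apply, α.apply_symm_apply] at h7
  exact h7

end Cfsg.Agent.H800.Co
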