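import Cfsg.Agent.H776.Co.FusDef
import Cfsg.Agent.H759.FusTransportD

/-!
# S5227, task C7 (helper800): transport of a fusion system on `P` along an automorphism of `P`
-/

set_option autoImplicit false
set_option linter.style.longLine false

namespace Cfsg.Agent.H800.Co

open Subgroup Cfsg Cfsg.FusionSystem Cfsg.Agent.H752 Cfsg.Agent.H759 Cfsg.Agent.H776.Co

universe u

section general

variable {Ω : Type u} [Group Ω] [Finite Ω]

theorem mp_push_iff {F F' : FusionSystem (⊤ : Subgroup Ω)} (α : Ω ≃* Ω)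
    (hp : IsPush (f := α.toMonoidHom) α.injective F F') (Q : Subgroup Ω) (f : Ω → Ω) :
    Mp F' (Q.map α.toMonoidHom) (fun x => α (f (α.symm x))) ↔ Mp F Q f := by
  have hf : Function.Injective α.toMonoidHom := α.injective
  constructor
  · rintro ⟨φ', hφ', h1⟩
    obtain ⟨φ, rfl⟩ := exists_eq_cb hf φ' (fun y => ⟨α.symm (φ' y), α.apply_symm_apply _⟩)
    refine ⟨φ, (hp.hom Q φ).1 hφ', fun x hx => ?_⟩
    have h2 := h1 (α x) ((map_mem_map hf x).2 hx)
    have h3 : cb hf φ ⟨α.toMonoidHom (⟨x, hx⟩ : Q), (map_mem_map hf x).2 hx⟩ = α.toMonoidHom (φ ⟨x, hx⟩) :=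
      cb_apply hf φ ⟨x, hx⟩ _
    have h4 : α (φ ⟨x, hx⟩) = α (f (α.symm (α x))) := h3.symm.trans h2
    rw [α.symm_apply_apply] at h4
    exact α.injective h4
  · rintro ⟨φ, hφ, h1⟩
    refine ⟨cb hf φ, (hp.hom Q φ).2 hφ, fun y hy => ?_⟩
    obtain ⟨x, hx, rfl⟩ := hy
    have h3 : cb hf φ ⟨α.toMonoidHom (⟨x, hx⟩ : Q), (map_mem_map hf x).2 hx⟩ = α.toMonoidHom (φ ⟨x, hx⟩) :=
      cb_apply hf φ ⟨x, hx⟩ _
    refine h3.trans ?_
    show α (φ ⟨x, hx⟩) = α (f (α.symm (α x)))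
    rw [h1, α.symm_apply_apply]

/-- Transport of a system on `⊤` along an automorphism of the ambient group. -/
theorem exists_conj_gen {p : ℕ} [Fact p.Prime] (F : FusionSystem (⊤ : Subgroup Ω)) (α : Ω ≃* Ω) :
    ∃ F' : FusionSystem (⊤ : Subgroup Ω), (∀ (Q : Subgroup Ω) (f : Ω → Ω),
        Mp F' (Q.map α.toMonoidHom) (fun x => α (f (α.symm x))) ↔ Mp F Q f) ∧
      (F.IsSaturated p → F'.IsSaturated p) ∧ (F.core = ⊥ → F'.core = ⊥) ∧ (F'.IsRealizable p → F.IsRealizable p) := by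
  have hf : Function.Injective α.toMonoidHom := α.injective
  have htop : (⊤ : Subgroup Ω) = (⊤ : Subgroup Ω).map α.toMonoidHom := by
    ext x
    exact ⟨fun _ => ⟨α.symm x, mem_top _, α.apply_symm_apply x⟩, fun _ => mem_top _⟩
  obtain ⟨F', hp⟩ := exists_push' (hf := hf) htop F
  refine ⟨F', fun Q f => mp_push_iff α hp Q f, fun h => hp.isSaturated_iff.2 h, fun h => ?_, ?_⟩
  · rw [hp.core_eq, h, Subgroup.map_bot]
  · rintro ⟨G, hG, hGf, ι, ⟨hι, hr⟩, T, hT⟩
    let γ : (⊤ : Subgroup Ω) →* (⊤ : Subgroup Ω) :=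
      (α.toMonoidHom.comp (⊤ : Subgroup Ω).subtype).codRestrict ⊤ (fun _ => mem_top _)
    have hγ : Function.Injective γ := by
      intro x y h
      have h1 := congrArg Subtype.val h
      exact Subtype.ext (α.injective h1)
    have hγs : Function.Surjective γ := by
      intro y
      exact ⟨⟨α.symm y, mem_top _⟩, Subtype.ext (α.apply_symm_apply y)⟩
    refine ⟨G, hG, hGf, ι.comp γ, ⟨hι.comp hγ, ?_⟩, T, ?_⟩
    · intro Q hQ φ hφ
      rw [← hp.hom Q φ, hr (Q.map α.toMonoidHom) le_top (cb hf φ) (fun _ => mem_top _)]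
      constructor
      · rintro ⟨g, hg⟩
        refine ⟨g, fun x => ?_⟩
        have h1 := hg (eqv hf Q x)
        have h2 : (⟨cb hf φ (eqv hf Q x), mem_top _⟩ : (⊤ : Subgroup Ω)) = γ ⟨φ x, hφ x⟩ :=
          Subtype.ext (cb_eqv hf φ x)
        rw [h2] at h1
        exact h1
      · rintro ⟨g, hg⟩
        refine ⟨g, fun y => ?_⟩
        obtain ⟨x, rfl⟩ := (eqv hf Q).surjective y
        have h1 := hg x
        have h2 : (⟨cb hf φ (eqv hf Q x), mem_top _⟩ : (⊤ : Subgroup Ω)) = γ ⟨φ x, hφ x⟩ :=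
          Subtype.ext (cb_eqv hf φ x)
        rw [h2]
        exact h1
    · rw [hT]
      ext y
      constructor
      · rintro ⟨x, rfl⟩
        obtain ⟨z, rfl⟩ := hγs x
        exact ⟨z, rfl⟩
      · rintro ⟨z, rfl⟩
        exact ⟨γ z, rfl⟩

end general

/-- **C7, second part.** -/
theorem exists_conj (F : FusionSystem (⊤ : Subgroup P)) (α : P ≃* P) :
    ∃ F' : FusionSystem (⊤ : Subgroup P), (∀ (Q : Subgroup P) (f : P → P), Mp F' (Q.map α.toMonoidHom) (fun x => α (f (α.symm x))) ↔ Mp F Q f) ∧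
      (F.IsSaturated 3 → F'.IsSaturated 3) ∧ (F.core = ⊥ → F'.core = ⊥) ∧ (F'.IsRealizable 3 → F.IsRealizable 3) :=
  exists_conj_gen F α

end Cfsg.Agent.H800.Co
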